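import Cfsg.Agent.TAB.Eng.Delta
import Cfsg.Agent.H447.CTabLam
import Cfsg.Agent.ChevalleyStructure.SL2Check
import Cfsg.Agent.S0148
import Cfsg.Agent.S1092

/-!
# S4942: the character table of the Weyl group of type `F₄` (helper83)

`W(F₄)` maps onto `S₃ × S₃` (characters `u`, `v` of degree two).  With `t` the reflection character and `e = Λ² t` the
25 irreducible characters are polynomials in `t`, `e`, `u`, `v` (`rows`).

* `row j l` : the value of the character number `j` at the word `l` (it can be evaluated by `decide +kernel`);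
* `tab` : every irreducible character is a row;  `exists_row` : every row is an irreducible character.
-/

set_option autoImplicit false

namespace Cfsg.Agent.VAN.WF

open Cfsg Cfsg.Agent.Characters.Core Cfsg.Agent.Characters.Brauer Cfsg.Agent.TAB.Eng CoxeterSystem
open Cfsg.Agent.ChevalleyStructure.SL2Check (fresh fresh_spec)
open scoped ComplexConjugate

/-- a row of a `4 × 4` matrix -/
abbrev T4 : Type := ℤ × ℤ × ℤ × ℤ

/-- the rows of the three matrices -/
abbrev St : Type := (T4 × T4 × T4 × T4) × T4 × T4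

/-- a row times a simple reflection -/
def r4 : Fin 4 → T4 → T4
  | 0, (a, b, c, d) => (-a, b + a, c, d)
  | 1, (a, b, c, d) => (a + b, -b, c + b, d)
  | 2, (a, b, c, d) => (a, b + 2 * c, -c, d + c)
  | 3, (a, b, c, d) => (a, b, c + d, -d)

/-- a `2 × 2` matrix times a simple reflection of `A₂` or (`i ≥ 2`) the identity -/
def r2 : Fin 4 → T4 → T4
  | 0, (a, b, c, d) => (-a, b + a, -c, d + c)
  | 1, (a, b, c, d) => (a + b, -b, c + d, -d)
  | 2, x => x
  | 3, x => x

/-- multiplication by a generator -/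
def step (s : St) (i : Fin 4) : St :=
  ((r4 i s.1.1, r4 i s.1.2.1, r4 i s.1.2.2.1, r4 i s.1.2.2.2), r2 i s.2.1, r2 i.rev s.2.2)

/-- the identity -/
def st1 : St := (((1, 0, 0, 0), (0, 1, 0, 0), (0, 0, 1, 0), (0, 0, 0, 1)), (1, 0, 0, 1), (1, 0, 0, 1))

/-- the matrices of a word -/
def ev (l : List (Fin 4)) : St := l.foldl step st1

/-- the 25 irreducible characters as polynomials -/
def rows {R : Type*} [CommRing R] (t e u v : R) : List R :=
  let a := u * u - u - 1
  let b := v * v - v - 1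
  let n := t * t - e - 1
  [1, a, b, a * b, u, u * b, v, v * a, u * v, t, t * a, t * b, t * (a * b), t * u, t * (u * b), t * v, t * (v * a),
    t * (u * v), n, n * a, n * b, n * (a * b), e, e * a, e * u]

/-- the values of the 25 characters -/
def vals : St → List ℤ
  | (((a₀, a₁, a₂, a₃), (b₀, b₁, b₂, b₃), (c₀, c₁, c₂, c₃), (d₀, d₁, d₂, d₃)), (p, _, _, p'), (q, _, _, q')) =>
    rows (a₀ + b₁ + c₂ + d₃) (a₀ * b₁ - a₁ * b₀ + (a₀ * c₂ - a₂ * c₀) + (a₀ * d₃ - a₃ * d₀) + (b₁ * c₂ - b₂ * c₁) +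
      (b₁ * d₃ - b₃ * d₁) + (c₂ * d₃ - c₃ * d₂)) (p + p') (q + q')

/-- the value of the character number `j` at the word `l` -/
def row (j : ℕ) (l : List (Fin 4)) : ℤ := (vals (ev l)).getD j 0

/-- a number which determines the element -/
def code : St → ℕ
  | (((a₀, a₁, a₂, a₃), (b₀, b₁, b₂, b₃), (c₀, c₁, c₂, c₃), (d₀, d₁, d₂, d₃)), _) =>
    (((16 * a₀ + 30 * a₁ + 42 * a₂ + 22 * a₃ + 16) / 2 * 31 + (16 * b₀ + 30 * b₁ + 42 * b₂ + 22 * b₃ + 30) / 2) * 989 +
      ((16 * c₀ + 30 * c₁ + 42 * c₂ + 22 * c₃ + 42) / 2 * 23 + (16 * d₀ + 30 * d₁ + 42 * d₂ + 22 * d₃ + 22) / 2)).toNat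

/-- products of words -/
def ext (L X : List (List (Fin 4))) : List (List (Fin 4)) := L.flatMap fun l => X.map fun x => l ++ x

/-- the same for the matrices -/
def extS (S : List St) (X : List (List (Fin 4))) : List St := S.flatMap fun s => X.map fun x => x.foldl step s

theorem map_ext (L X : List (List (Fin 4))) : (ext L X).map ev = extS (L.map ev) X := by
  simp [ext, extS, List.map_flatMap, List.flatMap_map, ev, Function.comp_def, List.foldl_append]

/-- `W / W_{012}` -/
def La : List (List (Fin 4)) := [[], [3], [2, 3], [1, 2, 3], [0, 1, 2, 3], [2, 1, 2, 3], [2, 0, 1, 2, 3],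
  [3, 2, 1, 2, 3], [1, 2, 0, 1, 2, 3], [3, 2, 0, 1, 2, 3], [2, 1, 2, 0, 1, 2, 3], [3, 1, 2, 0, 1, 2, 3],
  [2, 3, 1, 2, 0, 1, 2, 3], [3, 2, 1, 2, 0, 1, 2, 3], [1, 2, 3, 1, 2, 0, 1, 2, 3], [2, 3, 2, 1, 2, 0, 1, 2, 3],
  [0, 1, 2, 3, 1, 2, 0, 1, 2, 3], [1, 2, 3, 2, 1, 2, 0, 1, 2, 3], [0, 1, 2, 3, 2, 1, 2, 0, 1, 2, 3],
  [2, 1, 2, 3, 2, 1, 2, 0, 1, 2, 3], [2, 0, 1, 2, 3, 2, 1, 2, 0, 1, 2, 3], [1, 2, 0, 1, 2, 3, 2, 1, 2, 0, 1, 2, 3],
  [2, 1, 2, 0, 1, 2, 3, 2, 1, 2, 0, 1, 2, 3], [3, 2, 1, 2, 0, 1, 2, 3, 2, 1, 2, 0, 1, 2, 3]]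

/-- `W_{012} / W_{01}` -/
def Lb : List (List (Fin 4)) := [[], [2], [1, 2], [0, 1, 2], [2, 1, 2], [2, 0, 1, 2], [1, 2, 0, 1, 2],
  [2, 1, 2, 0, 1, 2]]

/-- all the elements -/
def LL : List (List (Fin 4)) := ext (ext (ext La Lb) [[], [1], [0, 1]]) [[], [0]]

/-- their matrices -/
def SS : List St := extS (extS (extS (La.map ev) Lb) [[], [1], [0, 1]]) [[], [0]]

theorem map_LL : LL.map ev = SS := by rw [LL, map_ext, map_ext, map_ext, SS]

theorem length_SS : SS.length = 1152 := by decide +kernel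

theorem fresh_SS : fresh 600000 (SS.map code) 0 = true := by decide +kernel

/-- the scalar product of two lists -/
def dot : List ℤ → List ℤ → ℤ
  | a :: x, b :: y => a * b + dot x y
  | _, _ => 0

/-- add the squares -/
def addSq : List ℤ → List ℤ → List ℤ
  | a :: x, b :: y => (a * a + b) :: addSq x y
  | _, _ => []

theorem norm_SS : (SS.map vals).foldr addSq (List.replicate 25 0) = List.replicate 25 1152 := by decide +kernel

theorem reg_SS : (SS.tail.all fun s => dot (vals st1) (vals s) == 0) = true := by decide +kernel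

theorem head_LL : LL.head? = some [] := by decide +kernel

theorem deg_pos : ∀ j, j < 25 → 0 < row j [] := by decide +kernel

set_option synthInstance.maxSize 2000 in
theorem rel_ev : ∀ i j : Fin 4, (fun s => step (step s i) j)^[CoxeterMatrix.F₄ i j] st1 = st1 := by decide +kernel

theorem length_vals (s : St) : (vals s).length = 25 := rfl

theorem dot_eq : ∀ (x y : List ℤ) (n : ℕ), x.length ≤ n → dot x y = ∑ j ∈ Finset.range n, x.getD j 0 * y.getD j 0
  | [], _, _, _ => by simp [dot]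
  | _ :: _, [], _, _ => by simp [dot]
  | a :: x, b :: y, 0, h => absurd h (by simp)
  | a :: x, b :: y, n + 1, h => by
    rw [dot, Finset.sum_range_succ', dot_eq x y n (by simpa using h), add_comm]
    rfl

theorem addSq_spec : ∀ (x y : List ℤ), x.length = y.length → (addSq x y).length = y.length ∧
    ∀ j, (addSq x y).getD j 0 = x.getD j 0 * x.getD j 0 + y.getD j 0
  | [], [], _ => by simp [addSq]
  | [], _ :: _, h => absurd h (by simp)
  | _ :: _, [], h => absurd h (by simp)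
  | a :: x, b :: y, h => by
    obtain ⟨h1, h2⟩ := addSq_spec x y (by simpa using h)
    refine ⟨by rw [addSq, List.length_cons, h1, List.length_cons], fun j => ?_⟩
    cases j with
    | zero => rfl
    | succ j => exact h2 j

theorem fold_spec (S : List St) : ((S.map vals).foldr addSq (List.replicate 25 0)).length = 25 ∧
    ∀ j, ((S.map vals).foldr addSq (List.replicate 25 0)).getD j 0 =
      (S.map fun s => (vals s).getD j 0 * (vals s).getD j 0).sum := by
  induction S with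
  | nil => exact ⟨rfl, fun j => by
      rw [List.map_nil, List.foldr_nil, List.getD_eq_getElem?_getD, List.getElem?_replicate]
      split_ifs <;> rfl⟩
  | cons s S ih =>
    obtain ⟨h1, h2⟩ := addSq_spec (vals s) _ ((length_vals s).trans ih.1.symm)
    exact ⟨h1.trans ih.1, fun j => by
      rw [List.map_cons, List.foldr_cons, h2, ih.2, List.map_cons, List.sum_cons]⟩

theorem map_rows {R S : Type*} [CommRing R] [CommRing S] (f : R →+* S) (t e u v : R) :
    (rows t e u v).map f = rows (f t) (f e) (f u) (f v) := by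
  simp [rows]

theorem mem_rows {R : Type*} [CommRing R] (A : Subring R) {t e u v : R} (ht : t ∈ A) (he : e ∈ A) (hu : u ∈ A)
    (hv : v ∈ A) : ∀ x ∈ rows t e u v, x ∈ A := by
  intro x hx
  have h1 := map_rows A.subtype ⟨t, ht⟩ ⟨e, he⟩ ⟨u, hu⟩ ⟨v, hv⟩
  obtain ⟨y, -, rfl⟩ := List.mem_map.1 (h1 ▸ hx : x ∈ (rows _ _ _ _).map A.subtype)
  exact y.2

/-- the matrix of degree four -/
def m4 : T4 × T4 × T4 × T4 → Matrix (Fin 4) (Fin 4) ℂ
  | ((a₀, a₁, a₂, a₃), (b₀, b₁, b₂, b₃), (c₀, c₁, c₂, c₃), (d₀, d₁, d₂, d₃)) =>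
    !![a₀, a₁, a₂, a₃; b₀, b₁, b₂, b₃; c₀, c₁, c₂, c₃; d₀, d₁, d₂, d₃]

/-- the matrices of degree two -/
def m2 : T4 → Matrix (Fin 2) (Fin 2) ℂ
  | (a, b, c, d) => !![a, b; c, d]

/-- the three matrices -/
def toN (s : St) : Matrix (Fin 4) (Fin 4) ℂ × Matrix (Fin 2) (Fin 2) ℂ × Matrix (Fin 2) (Fin 2) ℂ :=
  (m4 s.1, m2 s.2.1, m2 s.2.2)

theorem m2_step (x : T4) (i : Fin 4) : m2 (r2 i x) = m2 x * m2 (r2 i (1, 0, 0, 1)) := by
  obtain ⟨a, b, c, d⟩ := x
  fin_cases i <;> simp [m2, r2, add_comm]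

theorem m4_step (s : St) (i : Fin 4) : m4 (step s i).1 = m4 s.1 * m4 (step st1 i).1 := by
  obtain ⟨⟨⟨a₀, a₁, a₂, a₃⟩, ⟨b₀, b₁, b₂, b₃⟩, ⟨c₀, c₁, c₂, c₃⟩, ⟨d₀, d₁, d₂, d₃⟩⟩, p⟩ := s
  ext x y
  fin_cases i <;> fin_cases x <;> fin_cases y <;>
    simp [m4, r4, step, st1, Matrix.mul_apply, Fin.sum_univ_four, add_comm, mul_comm]

theorem toN_step (s : St) (i : Fin 4) : toN (step s i) = toN s * toN (step st1 i) :=
  Prod.ext (m4_step s i) (Prod.ext (m2_step _ _) (m2_step _ _))

theorem toN_one : toN st1 = 1 := by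
  refine Prod.ext ?_ (Prod.ext ?_ ?_)
  · ext x y
    fin_cases x <;> fin_cases y <;> simp [toN, m4, st1]
  · ext x y
    fin_cases x <;> fin_cases y <;> simp [toN, m2, st1]
  · ext x y
    fin_cases x <;> fin_cases y <;> simp [toN, m2, st1]

theorem liftable : CoxeterMatrix.F₄.IsLiftable fun i => toN (step st1 i) := by
  intro i j
  have h1 : ∀ (m : ℕ) (s : St), toN ((fun s => step (step s i) j)^[m] s) =
      toN s * (toN (step st1 i) * toN (step st1 j)) ^ m := by
    intro m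
    induction m with
    | zero => exact fun s => (mul_one _).symm
    | succ m ih => exact fun s => by rw [Function.iterate_succ_apply, ih, toN_step, toN_step s, pow_succ', mul_assoc, mul_assoc, mul_assoc]
  have h2 := h1 (CoxeterMatrix.F₄ i j) st1
  rw [rel_ev, toN_one, one_mul] at h2
  exact h2.symm

theorem code_eq {s s' : St} (h : toN s = toN s') : code s = code s' := by
  obtain ⟨⟨⟨a₀, a₁, a₂, a₃⟩, ⟨b₀, b₁, b₂, b₃⟩, ⟨c₀, c₁, c₂, c₃⟩, ⟨d₀, d₁, d₂, d₃⟩⟩, p⟩ := s
  obtain ⟨⟨⟨a₀', a₁', a₂', a₃'⟩, ⟨b₀', b₁', b₂', b₃'⟩, ⟨c₀', c₁', c₂', c₃'⟩, ⟨d₀', d₁', d₂', d₃'⟩⟩, p'⟩ := s'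
  have h1 := congrArg Prod.fst h
  simp only [toN, m4, EmbeddingLike.apply_eq_iff_eq, Matrix.vecCons_inj, Int.cast_inj, and_true] at h1
  obtain ⟨⟨rfl, rfl, rfl, rfl⟩, ⟨rfl, rfl, rfl, rfl⟩, ⟨rfl, rfl, rfl, rfl⟩, ⟨rfl, rfl, rfl, rfl⟩⟩ := h1
  rfl

theorem vals_eq (s : St) : (vals s).map (Int.castRingHom ℂ) = rows (toN s).1.trace
    (((toN s).1.trace * (toN s).1.trace - ((toN s).1 ^ 2).trace) / 2) (toN s).2.1.trace (toN s).2.2.trace := by
  obtain ⟨⟨⟨a₀, a₁, a₂, a₃⟩, ⟨b₀, b₁, b₂, b₃⟩, ⟨c₀, c₁, c₂, c₃⟩, ⟨d₀, d₁, d₂, d₃⟩⟩, ⟨p, p₁, p₂, p'⟩, ⟨q, q₁, q₂, q'⟩⟩ := s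
  rw [vals, map_rows, H447.CTab.trace_two]
  congr 1
  · simp [toN, m4, Matrix.trace, Fin.sum_univ_four]
  · simp [toN, m4, Matrix.trace, Fin.sum_univ_four]
    ring
  · simp [toN, m2]
  · simp [toN, m2]

section

variable {W : Type*} [Group W] (cs : CoxeterSystem CoxeterMatrix.F₄ W)

/-- the three representations -/
noncomputable def rho : W →* Matrix (Fin 4) (Fin 4) ℂ × Matrix (Fin 2) (Fin 2) ℂ × Matrix (Fin 2) (Fin 2) ℂ :=
  cs.lift ⟨_, liftable⟩

theorem rho_word (l : List (Fin 4)) : rho cs (cs.wordProd l) = toN (ev l) := by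
  induction l using List.reverseRecOn with
  | nil => rw [cs.wordProd_nil, map_one]; exact toN_one.symm
  | append_singleton l i ih =>
    rw [cs.wordProd_append, cs.wordProd_singleton, map_mul, ih, rho, cs.lift_apply_simple, ← toN_step, ev, ev,
      List.foldl_append]
    rfl

/-- the characters -/
noncomputable def chi (j : ℕ) : W → ℂ :=
  (rows (fun w => (rho cs w).1.trace)
    (fun w => ((rho cs w).1.trace * (rho cs w).1.trace - (rho cs (w ^ 2)).1.trace) / 2)
    (fun w => (rho cs w).2.1.trace) (fun w => (rho cs w).2.2.trace)).getD j 0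

theorem chi_word (j : ℕ) (l : List (Fin 4)) : chi cs j (cs.wordProd l) = (row j l : ℂ) := by
  have h1 := List.getD_map (vals (ev l)) 0 (n := j) (Int.castRingHom ℂ)
  rw [vals_eq, map_zero, ← rho_word cs] at h1
  refine Eq.trans ?_ h1
  refine (List.getD_map _ 0 (n := j) (Pi.evalRingHom (fun _ : W => ℂ) (cs.wordProd l))).symm.trans ?_
  rw [map_rows, map_zero]
  simp only [Pi.evalRingHom_apply, map_pow, Prod.pow_fst]

include cs in
theorem card_W : Nat.card W = 1152 := by
  rw [Nat.card_congr cs.mulEquiv.toEquiv]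
  exact S1092.result (⟨4, CoxeterMatrix.F₄⟩, 1152) (by simp)

theorem chi_gen [Finite W] (j : ℕ) : IsGeneralizedCharacter W (chi cs j) := by
  have ht := S0148.isCharacter_of_matrix ((MonoidHom.fst _ _).comp (rho cs))
  have hu := S0148.isCharacter_of_matrix ((MonoidHom.fst _ _).comp ((MonoidHom.snd _ _).comp (rho cs)))
  have hv := S0148.isCharacter_of_matrix ((MonoidHom.snd _ _).comp ((MonoidHom.snd _ _).comp (rho cs)))
  have h1 := mem_rows (genRing W) (isGeneralizedCharacter_of_isCharacter ht)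
    (isGeneralizedCharacter_of_isCharacter (H447.CTab.ext_two ht)) (isGeneralizedCharacter_of_isCharacter hu)
    (isGeneralizedCharacter_of_isCharacter hv)
  have h2 : ∀ L : List (W → ℂ), (∀ x ∈ L, x ∈ genRing W) → L.getD j 0 ∈ genRing W := fun L hL => by
    rw [List.getD_eq_getElem?_getD]
    cases h2 : L[j]? with
    | none => exact zero_mem _
    | some x => exact hL x (List.mem_of_getElem? h2)
  refine h2 _ ?_
  simpa only [MonoidHom.comp_apply, MonoidHom.coe_fst, MonoidHom.coe_snd] using h1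

theorem nodup_LL : (LL.map cs.wordProd).Nodup := by
  have h1 := (fresh_spec _ _ _ fresh_SS).1
  rw [← map_LL, List.map_map, List.Nodup, List.pairwise_map] at h1
  rw [List.Nodup, List.pairwise_map]
  exact h1.imp fun {l l'} h2 h3 => h2 (code_eq (by rw [← rho_word cs, ← rho_word cs, h3]))

theorem toFinset_LL [Fintype W] [DecidableEq W] : (LL.map cs.wordProd).toFinset = Finset.univ := by
  refine Finset.eq_univ_of_card _ ?_
  rw [List.toFinset_card_of_nodup (nodup_LL cs), List.length_map, ← List.length_map ev, map_LL, length_SS,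
    ← Nat.card_eq_fintype_card, card_W cs]

theorem chi_irr {j : ℕ} (hj : j < 25) : IsIrrCharacter W (chi cs j) := by
  classical
  have : Finite W := Nat.finite_of_card_ne_zero (by rw [card_W cs]; norm_num)
  have := Fintype.ofFinite W
  have h1 := (fold_spec SS).2 j
  rw [norm_SS, List.getD_eq_getElem?_getD, List.getElem?_replicate, if_pos hj, ← map_LL, List.map_map] at h1
  have h2 : classInner (chi cs j) (chi cs j) = 1 := by
    rw [classInner_def, ← toFinset_LL cs, List.sum_toFinset _ (nodup_LL cs), List.map_map, card_W cs]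
    have h3 := congrArg (Int.castRingHom ℂ) h1
    rw [map_list_sum, List.map_map] at h3
    refine inv_mul_eq_iff_eq_mul₀ (by norm_num) |>.2 ?_
    refine Eq.trans (congrArg List.sum (List.map_congr_left fun l _ => ?_)) (h3.symm.trans (by simp))
    simp only [Function.comp_apply, chi_word, row, map_intCast, map_mul, eq_intCast]
  refine (isIrr_of_generalized (chi_gen cs j) h2).resolve_right fun h3 => ?_
  obtain ⟨n, hn, h4⟩ := isIrr_apply_one h3
  rw [Pi.neg_apply, ← cs.wordProd_nil, chi_word] at h4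
  have h5 : -row j [] = n := by exact_mod_cast h4
  have := deg_pos j hj
  omega

/-- every row is an irreducible character -/
theorem exists_row {j : ℕ} (hj : j < 25) : ∃ φ : W → ℂ, IsIrrCharacter W φ ∧ ∀ l, φ (cs.wordProd l) = (row j l : ℂ) :=
  ⟨_, chi_irr cs hj, chi_word cs j⟩

/-- **The character table of `W(F₄)`.** -/
theorem tab {φ : W → ℂ} (hφ : IsIrrCharacter W φ) : ∃ j, j < 25 ∧ ∀ l, φ (cs.wordProd l) = (row j l : ℂ) := by
  classical
  have : Finite W := Nat.finite_of_card_ne_zero (by rw [card_W cs]; norm_num)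
  have := Fintype.ofFinite W
  by_contra hc
  have h1 : ∀ j ∈ Finset.range 25, classInner ((row j [] : ℂ) • chi cs j) φ = 0 := fun j hj => by
    rw [Finset.mem_range] at hj
    rw [classInner_smul_left, classInner_irr_ne (chi_irr cs hj) hφ fun h => hc ⟨j, hj, h ▸ chi_word cs j⟩, mul_zero]
  have h2 : ∀ l, (∑ j ∈ Finset.range 25, (row j [] : ℂ) • chi cs j) (cs.wordProd l) =
      (dot (vals st1) (vals (ev l)) : ℤ) := fun l => by
    rw [dot_eq _ _ 25 (length_vals _).le, Finset.sum_apply]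
    push_cast
    exact Finset.sum_congr rfl fun j _ => by rw [Pi.smul_apply, chi_word]; rfl
  have h3 := Finset.sum_eq_zero h1
  rw [← classInner_sum_left, classInner_def, Finset.sum_eq_single 1, ← cs.wordProd_nil, h2, cs.wordProd_nil,
    card_W cs, (by decide +kernel : dot (vals st1) (vals (ev [])) = 1152)] at h3
  · exact isIrr_apply_one_ne_zero hφ (by simpa using h3)
  · intro w _ hw
    obtain ⟨l, hl, rfl⟩ := List.mem_map.1 (List.mem_toFinset.1 (toFinset_LL cs ▸ Finset.mem_univ w))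
    rw [List.eq_cons_of_mem_head? head_LL, List.mem_cons] at hl
    have h4 := List.all_eq_true.1 reg_SS (ev l) (by
      rw [← map_LL, ← List.map_tail]
      exact List.mem_map_of_mem (hl.resolve_left fun h => hw (by rw [h, cs.wordProd_nil])))
    rw [h2, beq_iff_eq.1 h4, Int.cast_zero, zero_mul]
  · exact fun h => absurd (Finset.mem_univ _) h

end

end Cfsg.Agent.VAN.WF
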